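import Mathlib
import Cfsg.Agent.H63.Plus
import Cfsg.Agent.H124.DM.Cover

/-!
# The two half spin quotients of the universal cover of `PΩ⁺_{2m}(q)`, `m` even, `q` odd, are conjugate

`refl` : `UU (PΩ⁺)` has a subgroup `A0` of order two with quotient `Ω⁺`; the two other subgroups of order two of the
kernel are exchanged by an automorphism (induced by a reflection). (S4907, DM28 (b).)
-/

set_option autoImplicit false

namespace Cfsg.Agent.H713.DM

open QuadraticMap CliffordAlgebra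
open Cfsg.Agent.LieClassical Cfsg.Agent.LieClassical.OrthCore Cfsg.Agent.LieClassical.OrthTrans
open Cfsg.Agent.LieClassical.OrthForms
open Cfsg.Agent.TitsThree Cfsg.Agent.TitsThree.Siegel Cfsg.Agent.TitsThree.SiegelGen Cfsg.Agent.TitsThree.KSideO
open Cfsg.Agent.TitsThree.WBridge Cfsg.Agent.TitsThree.StdData
open Cfsg.Agent.Nodes.WittInst
open Cfsg.Agent.H51.Mult Cfsg.Agent.H63.Spin Cfsg.Agent.H63.Asm

section refl

variable {F V : Type*} [Field F] [AddCommGroup V] [Module F V] {Q : QuadraticForm F V}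

/-- the unit `ι u` -/
noncomputable def iu (u : V) (hu : Q u ≠ 0) : (CliffordAlgebra Q)ˣ where
  val := ι Q u
  inv := (Q u)⁻¹ • ι Q u
  val_inv := by rw [mul_smul_comm, ι_sq, smul_smul, inv_mul_cancel₀ hu, one_smul]
  inv_val := by rw [smul_mul_assoc, ι_sq, smul_smul, inv_mul_cancel₀ hu, one_smul]

/-- the pair `(ι u, r_u)` -/
noncomputable def cc (u : V) (hu : Q u ≠ 0) : Am Q := (iu u hu, OrthCore.refl Q u hu)

theorem cc_pp {u : V} (hu : Q u ≠ 0) {a b : V} (ha : Q a ≠ 0) (hab : Q a = Q b)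
    (ha' : Q (OrthCore.refl Q u hu a) ≠ 0) (hab' : Q (OrthCore.refl Q u hu a) = Q (OrthCore.refl Q u hu b)) :
    cc u hu * pp a b ha hab * (cc u hu)⁻¹ = pp (OrthCore.refl Q u hu a) (OrthCore.refl Q u hu b) ha' hab' := by
  have hO := refl_mem_O (Q := Q) hu
  rw [mul_inv_eq_iff_eq_mul]
  apply Prod.ext
  · apply Units.ext
    show ι Q u * ((Q a)⁻¹ • (ι Q a * ι Q b)) = (Q (OrthCore.refl Q u hu a))⁻¹ •
      (ι Q (OrthCore.refl Q u hu a) * ι Q (OrthCore.refl Q u hu b)) * ι Q u
    rw [mem_O.1 hO, mul_smul_comm, smul_mul_assoc, ← mul_assoc, ι_mul_ι_refl hu a, neg_mul, mul_assoc,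
      ι_mul_ι_refl hu b, mul_neg, neg_neg, mul_assoc]
  · show OrthCore.refl Q u hu * (OrthCore.refl Q a ha * OrthCore.refl Q b _) =
      OrthCore.refl Q (OrthCore.refl Q u hu a) ha' * OrthCore.refl Q (OrthCore.refl Q u hu b) _ *
        OrthCore.refl Q u hu
    rw [← refl_conj hO ha ha', ← refl_conj hO (hab ▸ ha : Q b ≠ 0) (hab' ▸ ha')]
    group

theorem cc_conj_mem {u : V} (hu : Q u ≠ 0) {x : Am Q} (hx : x ∈ Gam Q) : cc u hu * x * (cc u hu)⁻¹ ∈ Gam Q := by
  have h1 : Gam Q ≤ (Gam Q).comap (MulAut.conj (cc u hu)).toMonoidHom := by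
    conv_lhs => rw [Gam]
    rw [Subgroup.closure_le]
    rintro _ ⟨a, b, ha, hab, rfl⟩
    have hO := refl_mem_O (Q := Q) hu
    have ha' : Q (OrthCore.refl Q u hu a) ≠ 0 := by rwa [mem_O.1 hO]
    have hab' : Q (OrthCore.refl Q u hu a) = Q (OrthCore.refl Q u hu b) := by rw [mem_O.1 hO, mem_O.1 hO, hab]
    show cc u hu * pp a b ha hab * (cc u hu)⁻¹ ∈ Gam Q
    rw [cc_pp hu ha hab ha' hab']
    exact pp_mem_Gam _ _
  exact h1 hx

theorem cc_sq_comm {u : V} (hu : Q u ≠ 0) (x : Am Q) : cc u hu * cc u hu * x = x * (cc u hu * cc u hu) := by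
  apply Prod.ext
  · apply Units.ext
    show ι Q u * ι Q u * (x.1 : CliffordAlgebra Q) = x.1 * (ι Q u * ι Q u)
    rw [ι_sq, smul_mul_assoc, one_mul, mul_smul_comm, mul_one]
  · show OrthCore.refl Q u hu * OrthCore.refl Q u hu * x.2 = x.2 * (OrthCore.refl Q u hu * OrthCore.refl Q u hu)
    rw [refl_mul_self hu, one_mul, mul_one]

theorem cc_mem_normalizer {u : V} (hu : Q u ≠ 0) : cc u hu ∈ Subgroup.normalizer ((Gam Q : Subgroup (Am Q)) : Set (Am Q)) := by
  rw [Subgroup.mem_normalizer_iff]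
  intro x
  refine ⟨cc_conj_mem hu, fun h => ?_⟩
  have h1 := cc_conj_mem hu h
  have h3 : cc u hu * (cc u hu * x * (cc u hu)⁻¹) * (cc u hu)⁻¹ = x := by
    have h4 := cc_sq_comm hu x
    calc cc u hu * (cc u hu * x * (cc u hu)⁻¹) * (cc u hu)⁻¹
        = cc u hu * cc u hu * x * (cc u hu * cc u hu)⁻¹ := by group
      _ = x := by rw [h4, mul_assoc, mul_inv_cancel, mul_one]
  rwa [h3] at h1

/-- conjugation by `ι u` on `Gam` -/
noncomputable def cG (u : V) (hu : Q u ≠ 0) : Gam Q ≃* Gam Q :=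
  (Gam Q).normalizerMonoidHom ⟨cc u hu, cc_mem_normalizer hu⟩

theorem cG_apply {u : V} (hu : Q u ≠ 0) (x : Gam Q) : (cG u hu x : Am Q) = cc u hu * x * (cc u hu)⁻¹ := rfl

/-- conjugation by `ι u` on `LL` -/
noncomputable def cL (u : V) (hu : Q u ≠ 0) : LL Q ≃* LL Q :=
  ((cG u hu).subgroupMap (commutator (Gam Q))).trans
    (MulEquiv.subgroupCongr (by
      rw [commutator_def, Subgroup.map_commutator,
        Subgroup.map_top_of_surjective ((cG u hu : Gam Q ≃* Gam Q) : Gam Q →* Gam Q) (cG u hu).surjective]))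

theorem cL_apply {u : V} (hu : Q u ≠ 0) (x : LL Q) : ((cL u hu x).1 : Am Q) = cc u hu * x.1 * (cc u hu)⁻¹ := rfl

end refl

/-! ### Abstract part -/

/-- the two other subgroups of order two of a Klein four group are exchanged -/
theorem swap {L : Type*} [Group L] (K : Subgroup L) (hK : Nat.card K = 4) {m z : L} (hm : m ∈ K) (hz : z ∈ K)
    (m1 : m ≠ 1) (z1 : z ≠ 1) (hmz : m ≠ z) (mm : m * m = 1) (ψ : L ≃* L) (ψz : ψ z = m * z) (ψm : ψ m = m)
    (A B : Subgroup L) (hA : A ≤ K) (hB : B ≤ K) (cA : Nat.card A = 2) (cB : Nat.card B = 2)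
    (nA : A ≠ Subgroup.zpowers m) (nB : B ≠ Subgroup.zpowers m) :
    ∃ φ : MulAut L, A.map φ.toMonoidHom = B := by
  classical
  have hKf : Finite K := Nat.finite_of_card_ne_zero (by omega)
  have := Fintype.ofFinite K
  have hall : ∀ x ∈ K, x = 1 ∨ x = m ∨ x = z ∨ x = m * z := by
    intro x hx
    by_contra hcon
    simp only [not_or] at hcon
    obtain ⟨h1, h2, h3, h4⟩ := hcon
    have h5 : ({1, ⟨m, hm⟩, ⟨z, hz⟩, ⟨m * z, mul_mem hm hz⟩, ⟨x, hx⟩} : Finset K).card = 5 := by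
      have e1 : m * z ≠ m := fun h => z1 (mul_eq_left.1 h)
      have e2 : m * z ≠ z := fun h => m1 (mul_eq_right.1 h)
      have e3 : m * z ≠ 1 := fun h => hmz (by
        have h6 : m * (m * z) = m := by rw [h, mul_one]
        rw [← mul_assoc, mm, one_mul] at h6
        exact h6.symm)
      rw [Finset.card_insert_of_notMem, Finset.card_insert_of_notMem, Finset.card_insert_of_notMem,
        Finset.card_insert_of_notMem, Finset.card_singleton]
      · simp only [Finset.mem_singleton, Subtype.mk.injEq]; exact fun h => h4 h.symm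
      · simp only [Finset.mem_insert, Finset.mem_singleton, Subtype.mk.injEq, not_or]
        exact ⟨e2.symm, fun h => h3 h.symm⟩
      · simp only [Finset.mem_insert, Finset.mem_singleton, Subtype.mk.injEq, not_or]
        exact ⟨hmz, e1.symm, fun h => h2 h.symm⟩
      · simp only [Finset.mem_insert, Finset.mem_singleton, ← Subtype.val_inj, Subgroup.coe_one, not_or]
        exact ⟨m1.symm, z1.symm, e3.symm, fun h => h1 h.symm⟩
    have h6 := Finset.card_le_univ ({1, ⟨m, hm⟩, ⟨z, hz⟩, ⟨m * z, mul_mem hm hz⟩, ⟨x, hx⟩} : Finset K)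
    rw [h5, ← Nat.card_eq_fintype_card, hK] at h6
    omega
  have key : ∀ A : Subgroup L, A ≤ K → Nat.card A = 2 → A ≠ Subgroup.zpowers m →
      A = Subgroup.zpowers z ∨ A = Subgroup.zpowers (m * z) := by
    intro A hA cA nA
    obtain ⟨a, ha, hau⟩ := (Nat.card_eq_two_iff' (1 : A)).1 cA
    have hAz : A = Subgroup.zpowers a.1 := by
      apply le_antisymm
      · intro x hx
        by_cases h : (⟨x, hx⟩ : A) = 1
        · rw [show x = 1 from congrArg Subtype.val h]; exact one_mem _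
        · rw [show x = a.1 from congrArg Subtype.val (hau ⟨x, hx⟩ h)]; exact Subgroup.mem_zpowers _
      · rw [Subgroup.zpowers_le]; exact a.2
    rcases hall a.1 (hA a.2) with h | h | h | h
    · exact absurd (Subtype.ext h) ha
    · exact absurd (by rw [hAz, h]) nA
    · left; rw [hAz, h]
    · right; rw [hAz, h]
  have ψz' : ψ (m * z) = z := by rw [map_mul, ψm, ψz, ← mul_assoc, mm, one_mul]
  rcases key A hA cA nA with rfl | rfl <;> rcases key B hB cB nB with rfl | rfl
  · exact ⟨1, by rw [MonoidHom.map_zpowers]; rfl⟩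
  · refine ⟨ψ, ?_⟩
    rw [MonoidHom.map_zpowers]
    show Subgroup.zpowers (ψ z) = _
    rw [ψz]
  · refine ⟨ψ, ?_⟩
    rw [MonoidHom.map_zpowers]
    show Subgroup.zpowers (ψ (m * z)) = _
    rw [ψz']
  · exact ⟨1, by rw [MonoidHom.map_zpowers]; rfl⟩

/-- the whole argument, abstractly -/
theorem core {U L P O : Type*} [Group U] [Group L] [Group P] [Group O] [Finite L] {π : U →* P}
    (cK : Nat.card π.ker = 4) (hcen : π.ker ≤ Subgroup.center U) {σ : L →* P} {η : U →* L} (hη : σ.comp η = π)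
    (ηs : Function.Surjective η) (h4 : 4 ≤ Nat.card σ.ker) {ρ : L →* O} (ρs : Function.Surjective ρ)
    (hρ : ρ.ker ≤ σ.ker) {X Y : L} (sX : σ X = 1) (rY : ρ Y = 1) (rX : ρ X ≠ 1) (Y1 : Y ≠ 1) (YY : Y * Y = 1)
    {ψ : L ≃* L} (ψX : ψ X = Y * X) (ψY : ψ Y = Y) :
    ∃ (A0 : Subgroup U) (_ : A0.Normal), A0 ≤ π.ker ∧ Nat.card A0 = 2 ∧ Nonempty (U ⧸ A0 ≃* O) ∧
      ∀ A B : Subgroup U, A ≤ π.ker → B ≤ π.ker → Nat.card A = 2 → Nat.card B = 2 → A ≠ A0 → B ≠ A0 →
        ∃ φ : MulAut U, A.map φ.toMonoidHom = B := by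
  have : Finite π.ker := Nat.finite_of_card_ne_zero (by omega)
  have hmem : ∀ w, w ∈ π.ker ↔ η w ∈ σ.ker := by
    intro w
    rw [MonoidHom.mem_ker, MonoidHom.mem_ker, ← hη, MonoidHom.comp_apply]
  let ηk : π.ker →* σ.ker :=
    (η.comp π.ker.subtype).codRestrict σ.ker (fun w => (hmem w).1 w.2)
  have ηks : Function.Surjective ηk := by
    rintro ⟨w, hw⟩
    obtain ⟨w', rfl⟩ := ηs w
    exact ⟨⟨w', (hmem w').2 hw⟩, rfl⟩
  have ηki : Function.Injective ηk := by
    have hc : Nat.card σ.ker = Nat.card π.ker :=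
      le_antisymm (Nat.card_le_card_of_surjective _ ηks) (by rw [cK]; exact h4)
    exact ((Nat.bijective_iff_surjective_and_card ηk).2 ⟨ηks, hc.symm⟩).1
  have ηi : Function.Injective η := by
    rw [injective_iff_map_eq_one]
    intro w hw
    have hw' : w ∈ π.ker := (hmem w).2 (by rw [hw]; exact one_mem _)
    have h5 : ηk ⟨w, hw'⟩ = 1 := Subtype.ext hw
    have h6 := (injective_iff_map_eq_one ηk).1 ηki _ h5
    exact congrArg Subtype.val h6
  let e : U ≃* L := MulEquiv.ofBijective η ⟨ηi, ηs⟩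
  have he : ∀ w, e w = η w := fun _ => rfl
  have X1 : X ≠ 1 := by
    rintro rfl
    exact rX (map_one ρ)
  have YX : Y ≠ X := by
    rintro rfl
    exact rX rY
  set X' := e.symm X with hX'
  set Y' := e.symm Y with hY'
  have eX' : e X' = X := e.apply_symm_apply X
  have eY' : e Y' = Y := e.apply_symm_apply Y
  have kX' : X' ∈ π.ker := (hmem _).2 (by rw [← he, eX']; exact sX)
  have kY' : Y' ∈ π.ker := (hmem _).2 (by rw [← he, eY']; exact hρ rY)
  have hn : (Subgroup.zpowers Y').Normal := normal_of_le_center (by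
    rw [Subgroup.zpowers_le]
    exact hcen kY')
  have Y'2 : Y' * Y' = 1 := by
    apply e.injective
    rw [map_mul, eY', YY, map_one]
  have Y'1 : Y' ≠ 1 := fun h => Y1 (by rw [← eY', h, map_one])
  have c0 : Nat.card (Subgroup.zpowers Y') = 2 := by
    rw [Nat.card_zpowers]
    exact orderOf_eq_prime (by rw [pow_two, Y'2]) Y'1
  have hle0 : Subgroup.zpowers Y' ≤ π.ker := by rw [Subgroup.zpowers_le]; exact kY'
  refine ⟨Subgroup.zpowers Y', hn, hle0, c0, ?_, ?_⟩
  · -- the quotient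
    let f : U →* O := ρ.comp e.toMonoidHom
    have hf : ∀ w, f w = ρ (e w) := fun _ => rfl
    have hfs : Function.Surjective f := ρs.comp e.surjective
    have hle1 : Subgroup.zpowers Y' ≤ f.ker := by
      rw [Subgroup.zpowers_le, MonoidHom.mem_ker, hf, eY', rY]
    have hle2 : f.ker ≤ π.ker := by
      intro w hw
      rw [MonoidHom.mem_ker, hf] at hw
      exact (hmem w).2 (hρ hw)
    have hfk : f.ker = Subgroup.zpowers Y' := by
      have : Finite f.ker := Finite.of_injective _ (Subgroup.inclusion_injective hle2)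
      have c1 := Subgroup.card_dvd_of_le hle1
      have c2 := Subgroup.card_dvd_of_le hle2
      rw [cK] at c2
      rw [c0] at c1
      have c4 : Nat.card f.ker ≠ 4 := fun h => by
        have h5 : f.ker = π.ker := Subgroup.eq_of_le_of_card_ge hle2 (by rw [h, cK])
        have h6 : X' ∈ f.ker := by rw [h5]; exact kX'
        rw [MonoidHom.mem_ker, hf, eX'] at h6
        exact rX h6
      have c6 : Nat.card f.ker ≤ 4 := Nat.le_of_dvd (by norm_num) c2
      have c7 : 0 < Nat.card f.ker := Nat.card_pos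
      have c8 : Nat.card f.ker = 2 := by
        obtain ⟨t, ht⟩ := c1
        omega
      exact (Subgroup.eq_of_le_of_card_ge hle1 (by rw [c0, c8])).symm
    exact ⟨(QuotientGroup.quotientMulEquivOfEq hfk).symm.trans (QuotientGroup.quotientKerEquivOfSurjective f hfs)⟩
  · intro A B hA hB cA cB nA nB
    refine swap π.ker cK kY' kX' Y'1 ?_ ?_ Y'2 ((e.trans ψ).trans e.symm) ?_ ?_ A B hA hB cA cB nA nB
    · exact fun h => X1 (by rw [← eX', h, map_one])
    · exact fun h => YX (by rw [← eX', ← eY', h])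
    · show e.symm (ψ (e X')) = _
      rw [eX', ψX, map_mul]
    · show e.symm (ψ (e Y')) = _
      rw [eY', ψY]

/-! ### The theorem -/

theorem two_ne {F : Type*} [Field F] [Fintype F] (ho : Odd (Fintype.card F)) : (2 : F) ≠ 0 := by
  intro h
  have h1 : ringChar F = 2 := by
    have hd : ringChar F ∣ 2 := (CharP.cast_eq_zero_iff F (ringChar F) 2).1 (by exact_mod_cast h)
    rcases (Nat.dvd_prime Nat.prime_two).1 hd with h3 | h3
    · exfalso
      have := CharP.cast_eq_zero F (ringChar F)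
      rw [h3, Nat.cast_one] at this
      exact one_ne_zero this
    · exact h3
  have h3 := FiniteField.even_card_of_char_two h1
  rw [Nat.odd_iff] at ho
  omega

/-- the lifts of `-1` in the spin group -/
theorem spin_data {F : Type} [Field F] [Finite F] (h2 : (2 : F) ≠ 0) {m : ℕ} (hm : 4 ≤ m) (hev : Even m)
    (hG : Good (plusForm m F)) : ∃ (X Y : LL (plusForm m F)) (ψ : LL (plusForm m F) ≃* LL (plusForm m F)),
    spi hG X = 1 ∧ prL hG Y = 1 ∧ prL hG X ≠ 1 ∧ Y ≠ 1 ∧ Y * Y = 1 ∧ ψ X = Y * X ∧ ψ Y = Y ∧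
      4 ≤ Nat.card (spi hG).ker := by
  obtain ⟨k, hk⟩ := hev
  have hzex := exists_z_even (wplus m F) hG h2 (by omega) (k := k) (by omega) H63.Plus.V0_plus
  have h4 := four_le hG h2 (wplus m F) (by omega) hzex
  obtain ⟨z, ⟨x, hx, hx'⟩, hzv, hzz⟩ := hzex
  obtain ⟨y, hy, hy'⟩ := exists_mm (wplus m F) h2 hG.nondeg (show 3 ≤ m by omega)
  obtain ⟨u, hu⟩ : ∃ u, plusForm m F u ≠ 0 := by
    refine ⟨sv (wplus m F) ⟨0, by omega⟩ 1, ?_⟩
    rw [Q_sv]; exact one_ne_zero
  obtain ⟨X, hX⟩ : ∃ X : LL (plusForm m F), X = ⟨x, hx⟩ := ⟨_, rfl⟩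
  obtain ⟨Y, hY⟩ : ∃ Y : LL (plusForm m F), Y = ⟨y, hy⟩ := ⟨_, rfl⟩
  have evX : (X.1 : Am (plusForm m F)) = z := by rw [hX]; exact hx'
  have evY : (Y.1 : Am (plusForm m F)) = H63.Spin.mm := by rw [hY]; exact hy'
  have evI : ∀ a b : LL (plusForm m F), (a.1 : Am (plusForm m F)) = b.1 → a = b :=
    fun a b h => Subtype.ext (Subtype.ext h)
  have hne : z.2 ≠ 1 := by
    intro h
    have h4 : ∀ v : Fin m ⊕ Fin m → F, v = 0 := by
      intro v
      have h5 := hzv v
      rw [h] at h5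
      have h6 : v = -v := h5
      have h7 : (2 : F) • v = 0 := by
        rw [two_smul]
        nth_rw 1 [h6]
        exact neg_add_cancel v
      exact (smul_eq_zero.1 h7).resolve_left h2
    have h5 := h4 (Function.const _ 1)
    have h6 := congrFun h5 (Sum.inl ⟨0, by omega⟩)
    exact one_ne_zero h6
  refine ⟨X, Y, cL u hu, ?_, ?_, ?_, ?_, ?_, ?_, ?_, h4⟩
  · exact spi_eq_one hG (fun v => by rw [evX, hzv])
  · apply Subtype.ext
    show (Y.1 : Am (plusForm m F)).2 = 1
    rw [evY]; rfl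
  · intro h
    apply hne
    rw [← evX]
    exact congrArg Subtype.val h
  · intro h
    apply mm_ne (Q := plusForm m F) h2
    rw [← evY, h]; rfl
  · apply evI
    show (Y.1 : Am (plusForm m F)) * Y.1 = 1
    rw [evY, mm_sq]
  · apply evI
    rw [cL_apply]
    show cc u hu * (X.1 : Am (plusForm m F)) * (cc u hu)⁻¹ = (Y.1 : Am (plusForm m F)) * (X.1 : Am (plusForm m F))
    rw [evX, evY, mul_inv_eq_iff_eq_mul]
    have hcov : z ∈ Cov (plusForm m F) := by
      rw [← hx']; exact Gam_le_Cov x.2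
    apply Prod.ext
    · apply Units.ext
      show ι (plusForm m F) u * (z.1 : CliffordAlgebra (plusForm m F)) =
        (-1 : CliffordAlgebra (plusForm m F)) * (z.1 : CliffordAlgebra (plusForm m F)) * ι (plusForm m F) u
      have h5 := hcov u
      rw [hzv, map_neg] at h5
      rw [neg_one_mul, neg_mul, h5, neg_mul, neg_neg]
    · show OrthCore.refl (plusForm m F) u hu * z.2 = 1 * z.2 * OrthCore.refl (plusForm m F) u hu
      rw [one_mul]
      ext1 v
      show OrthCore.refl _ u hu (z.2 v) = z.2 (OrthCore.refl _ u hu v)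
      rw [hzv, hzv, map_neg]
  · apply evI
    rw [cL_apply, evY, ← mm_comm, mul_assoc, mul_inv_cancel, mul_one]

theorem card_klein : Nat.card (Multiplicative (ZMod 2 × ZMod 2)) = 4 := by
  rw [Nat.card_eq_fintype_card]
  rfl

set_option maxHeartbeats 2000000 in
open Cfsg.Agent.H487 in
/-- **DM28 (b).** -/
theorem refl {F : Type} [Field F] [Fintype F] (ho : Odd (Fintype.card F)) {m : ℕ} (hm : 4 ≤ m) (hev : Even m) :
    ∃ (A0 : Subgroup (UU (Cfsg.POmega F (Cfsg.quadFormPlus m F)))) (_ : A0.Normal),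
      A0 ≤ (prU (Cfsg.POmega F (Cfsg.quadFormPlus m F))).ker ∧ Nat.card A0 = 2 ∧
      Nonempty (UU (Cfsg.POmega F (Cfsg.quadFormPlus m F)) ⧸ A0 ≃* Cfsg.Omega F (Cfsg.quadFormPlus m F)) ∧
      ∀ A B : Subgroup (UU (Cfsg.POmega F (Cfsg.quadFormPlus m F))),
        A ≤ (prU (Cfsg.POmega F (Cfsg.quadFormPlus m F))).ker → B ≤ (prU (Cfsg.POmega F (Cfsg.quadFormPlus m F))).ker →
        Nat.card A = 2 → Nat.card B = 2 → A ≠ A0 → B ≠ A0 →
        ∃ φ : MulAut (UU (Cfsg.POmega F (Cfsg.quadFormPlus m F))), A.map φ.toMonoidHom = B := by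
  have h2 : (2 : F) ≠ 0 := two_ne ho
  have hmul := H63.Plus.even_rank (F := F) h2 hm hev
  rw [← coe_plusForm] at hmul ⊢
  have hG : Good (plusForm m F) := H63.Plus.good_plus F (by omega)
  have := finite_PO hG
  have := finite_LL hG h2
  have hpce := pce hG h2
  obtain ⟨X, Y, ψ, sX, rY, rX, Y1, YY, ψX, ψY, h4⟩ := spin_data h2 hm hev hG
  obtain ⟨η, hη⟩ := exists_prU_lift (Cfsg.POmega F ⇑(plusForm m F)) (MonoidHom.id _) hpce.surj hpce.cen
  rw [MonoidHom.id_comp] at hη
  have hQp : Group.IsPerfect (Cfsg.POmega F ⇑(plusForm m F)) := ⟨perfect_PO hG⟩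
  have ηs : Function.Surjective η := H60.CoverMult.surjective_of_comp (isPerfect_UU hQp).commutator_eq_top
    (prU_surjective hQp) hpce.toStem hη
  have cK : Nat.card (prU (Cfsg.POmega F ⇑(plusForm m F))).ker = 4 := by
    obtain ⟨e1⟩ := nonempty_mulEquiv_MM hmul
    obtain ⟨e2⟩ := nonempty_prU_ker (Cfsg.POmega F ⇑(plusForm m F))
    rw [Nat.card_congr (e2.trans e1.symm).toEquiv]
    exact card_klein
  refine core cK (prU_ker_central _) hη ηs h4 (ρ := (toOmega hG).toMonoidHom.comp (prL hG))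
    ((toOmega hG).surjective.comp (prL_surjective hG h2)) ?_ sX ?_ ?_ Y1 YY ψX ψY
  · intro w hw
    have hw1 : prL hG w = 1 := (toOmega hG).injective (by rw [map_one]; exact hw)
    rw [MonoidHom.mem_ker]
    show toPOmega hG (prL hG w) = 1
    rw [hw1, map_one]
  · show toOmega hG (prL hG Y) = 1
    rw [rY, map_one]
  · intro h
    exact rX ((toOmega hG).injective (by rw [map_one]; exact h))

end Cfsg.Agent.H713.DM
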